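import Cfsg.Agent.H282.LT.Basic
import Cfsg.Agent.H282.LT.Perm

/-!
# S2927, alternating socle: the fixed points of central involutions, and `Q` abelian when `z` has at least 5 two-cycles
-/

set_option autoImplicit false
set_option linter.unusedSectionVars false
open Cfsg Subgroup
open Cfsg.Agent.H229 Cfsg.Agent.H230 Cfsg.Agent.H252.LT

namespace Cfsg.Agent.H282.LT

open Equiv Equiv.Perm
open scoped commutatorElement Pointwise

variable {G : Type*} [Group G] {n : ℕ} {ψ : G →* Perm (Fin n)}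

/-- `G` is between `A_n` and `S_n`. -/
structure Rep (ψ : G →* Perm (Fin n)) : Prop where
  inj : Function.Injective ψ
  ev : ∀ σ : Perm (Fin n), sign σ = 1 → ∃ g : G, ψ g = σ

namespace Rep

theorem mem_cent (h : Rep ψ) {g t : G} : g ∈ centralizer ({t} : Set G) ↔ ψ g * ψ t = ψ t * ψ g := by
  rw [mem_centralizer_singleton_iff, ← map_mul, ← map_mul, h.inj.eq_iff]

theorem sq (ψ : G →* Perm (Fin n)) {t : G} (ht : t ^ 2 = 1) : ψ t * ψ t = 1 := by
  rw [← map_mul, ← pow_two, ht, map_one]

theorem ne_one (h : Rep ψ) {t : G} (ht : t ≠ 1) : ∃ i, ψ t i ≠ i := by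
  by_contra hc
  push Not at hc
  apply ht
  apply h.inj
  rw [map_one]
  ext i; rw [hc i]; rfl

end Rep

/-- the even permutations with support in the set of fixed points of `t` -/
def NF (ψ : G →* Perm (Fin n)) (t : G) : Subgroup G where
  carrier := {g | (∀ i, ψ t i ≠ i → ψ g i = i) ∧ sign (ψ g) = 1}
  mul_mem' := by
    rintro a b ⟨h1, h2⟩ ⟨h3, h4⟩
    refine ⟨fun i hi => ?_, by rw [map_mul, map_mul, h2, h4]; rfl⟩
    rw [map_mul, Perm.mul_apply, h3 i hi, h1 i hi]
  one_mem' := by simp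
  inv_mem' := by
    rintro a ⟨h1, h2⟩
    refine ⟨fun i hi => ?_, by rw [map_inv, map_inv, h2]; rfl⟩
    rw [map_inv, Perm.inv_eq_iff_eq]
    exact (h1 i hi).symm

theorem mem_NF {t g : G} : g ∈ NF ψ t ↔ (∀ i, ψ t i ≠ i → ψ g i = i) ∧ sign (ψ g) = 1 := Iff.rfl

theorem NF_le (h : Rep ψ) (t : G) : NF ψ t ≤ centralizer ({t} : Set G) := by
  rintro g ⟨h1, -⟩
  rw [h.mem_cent]
  ext i
  rw [Perm.mul_apply, Perm.mul_apply]
  by_cases hi : ψ t i = i
  · rw [hi]
    by_contra hne
    have h2 : ψ t (ψ g i) ≠ ψ g i := fun h3 => hne (by rw [h3])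
    have h3 := h1 _ h2
    rw [(ψ g).injective h3] at h2
    exact h2 hi
  · rw [h1 i hi, h1 (ψ t i) (fun h3 => hi ((ψ t).injective h3))]

theorem NF_norm (h : Rep ψ) (t : G) : centralizer ({t} : Set G) ≤ normalizer (NF ψ t : Set G) := by
  rw [le_norm_iff]
  rintro k hk g ⟨h1, h2⟩
  rw [h.mem_cent] at hk
  refine ⟨fun i hi => ?_, ?_⟩
  · rw [map_mul, map_mul, map_inv, Perm.mul_apply, Perm.mul_apply]
    have h0 : ψ k ((ψ k)⁻¹ i) = i := by rw [← Perm.mul_apply, mul_inv_cancel]; rfl
    rw [h1 ((ψ k)⁻¹ i), h0]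
    intro h3
    apply hi
    have h4 := congrArg (fun f : Perm (Fin n) => f ((ψ k)⁻¹ i)) hk
    simp only [Perm.mul_apply, h3, h0] at h4
    exact h4.symm
  · rw [map_mul, map_mul, map_mul, map_mul, map_inv, map_inv, h2]
    simp

/-- the 2-power commutators -/
theorem comm_pow [Finite G] (h : Rep ψ) {t u : G} (hu : u ∈ pCoreOf 2 (centralizer ({t} : Set G)))
    {c : Perm (Fin n)} (hc : c * ψ t = ψ t * c) (hs : sign c = 1) : ∃ k : ℕ, ⁅ψ u, c⁆ ^ 2 ^ k = 1 := by
  obtain ⟨g, hg⟩ := h.ev c hs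
  have hgC : g ∈ centralizer ({t} : Set G) := by rw [h.mem_cent, hg]; exact hc
  have h1 : ⁅u, g⁆ ∈ pCoreOf 2 (centralizer ({t} : Set G)) := by
    have h2 := le_norm_iff.1 (le_norm_pCoreOf 2 (centralizer ({t} : Set G))) g hgC u⁻¹ (inv_mem hu)
    have e : ⁅u, g⁆ = u * (g * u⁻¹ * g⁻¹) := by rw [commutatorElement_def]; group
    rw [e]; exact mul_mem hu h2
  obtain ⟨k, hk⟩ := (isPGroup_pCoreOf 2 (centralizer ({t} : Set G))) ⟨_, h1⟩
  refine ⟨k, ?_⟩
  have h3 : ⁅u, g⁆ ^ 2 ^ k = 1 := congrArg Subtype.val hk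
  rw [← hg, ← map_commutatorElement, ← map_pow, h3, map_one]

/-- **fixed points**: if `C_G(t)` has characteristic 2 then `t` has at most 2 or exactly 4 fixed points. -/
theorem Rep.card_fix [Finite G] (h : Rep ψ) {t : G} (hch : ChP 2 (centralizer ({t} : Set G)))
    (h3 : 3 ≤ (Finset.univ.filter fun i => ψ t i = i).card) : (Finset.univ.filter fun i => ψ t i = i).card = 4 := by
  classical
  by_contra h4
  set F := Finset.univ.filter fun i => ψ t i = i with hF
  have memF : ∀ i, i ∈ F ↔ ψ t i = i := fun i => by rw [hF, Finset.mem_filter]; simp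
  have key : pCoreOf 2 (centralizer ({t} : Set G)) ⊓ NF ψ t = ⊥ := by
    by_contra hne
    obtain ⟨u, ⟨huO, huN⟩, hu1, hu2⟩ := exists_invol (isPGroup_mono inf_le_left (isPGroup_pCoreOf 2 _)) hne
    have huO' : u ∈ pCoreOf 2 (centralizer ({t} : Set G)) := huO
    have huN' : u ∈ NF ψ t := huN
    obtain ⟨i, hi⟩ := h.ne_one hu1
    have hυ2 := Rep.sq ψ hu2
    have hυυ : ∀ l, ψ u (ψ u l) = l := fun l => congrArg (fun f : Perm (Fin n) => f l) hυ2
    have hut := h.mem_cent.1 (NF_le h t huN')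
    have huF : ∀ l, ψ t l = l → ψ t (ψ u l) = ψ u l := by
      intro l hl
      have := congrArg (fun f : Perm (Fin n) => f l) hut
      simp only [Perm.mul_apply, hl] at this
      exact this.symm
    have hiF : ψ t i = i := by
      by_contra h5
      exact hi (huN'.1 i h5)
    have hcomm : ∀ a b e : Fin n, a ≠ b → b ≠ e → ψ t a = a → ψ t b = b → ψ t e = e →
        ∃ k : ℕ, ⁅ψ u, cyc a b e⁆ ^ 2 ^ k = 1 := by
      intro a b e hab hbe ha hb he
      apply comm_pow h huO' _ (sign_cyc hab hbe)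
      have h5 : ψ t * cyc a b e * (ψ t)⁻¹ = cyc a b e := by rw [conj_cyc, ha, hb, he]
      have h6 := congrArg (· * ψ t) h5
      simp only [inv_mul_cancel_right] at h6
      exact h6.symm
    by_cases hfix : ∃ e, ψ t e = e ∧ ψ u e = e
    · obtain ⟨e, he1, he2⟩ := hfix
      have hie : i ≠ e := by rintro rfl; exact hi he2
      have hje : ψ u i ≠ e := by
        intro h5
        apply hie
        rw [← hυυ i, h5, he2]
      obtain ⟨k, hk⟩ := hcomm i (ψ u i) e hi.symm hje hiF (huF i hiF) he1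
      exact comm_fix (X := Fin n) (cyc_1 hi.symm hie hje) (cyc_2 hi.symm hie hje) (cyc_3 hi.symm hie hje)
        rfl (hυυ i) he2 hie hk
    · push Not at hfix
      have hs2 : ({i, ψ u i} : Finset (Fin n)).card ≤ 2 := Finset.card_le_two
      obtain ⟨k, hkF, hk⟩ := Finset.exists_mem_notMem_of_card_lt_card (s := ({i, ψ u i} : Finset (Fin n))) (t := F)
        (by omega)
      rw [Finset.mem_insert, Finset.mem_singleton, not_or] at hk
      rw [memF] at hkF
      have hk2 := hfix k hkF
      have e1 : ψ u k ≠ i := fun h5 => hk.2 (by rw [← h5, hυυ])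
      have e2 : ψ u k ≠ ψ u i := fun h5 => hk.1 ((ψ u).injective h5)
      have h5 : 4 ≤ F.card := by
        have h6 : ({i, ψ u i, k, ψ u k} : Finset (Fin n)) ⊆ F := by
          intro x hx
          simp only [Finset.mem_insert, Finset.mem_singleton] at hx
          rw [memF]
          rcases hx with rfl | rfl | rfl | rfl
          · exact hiF
          · exact huF _ hiF
          · exact hkF
          · exact huF _ hkF
        have h7 : ({i, ψ u i, k, ψ u k} : Finset (Fin n)).card = 4 := by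
          rw [Finset.card_insert_of_notMem, Finset.card_insert_of_notMem, Finset.card_insert_of_notMem,
            Finset.card_singleton]
          · rw [Finset.mem_singleton]; exact hk2.symm
          · simp only [Finset.mem_insert, Finset.mem_singleton, not_or]; exact ⟨Ne.symm hk.2, e2.symm⟩
          · simp only [Finset.mem_insert, Finset.mem_singleton, not_or]
            exact ⟨hi.symm, Ne.symm hk.1, e1.symm⟩
        rw [← h7]; exact Finset.card_le_card h6
      have hs4 : ({i, ψ u i, k, ψ u k} : Finset (Fin n)).card ≤ 4 := Finset.card_le_four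
      obtain ⟨e, heF, he⟩ := Finset.exists_mem_notMem_of_card_lt_card
        (s := ({i, ψ u i, k, ψ u k} : Finset (Fin n))) (t := F) (by omega)
      simp only [Finset.mem_insert, Finset.mem_singleton, not_or] at he
      rw [memF] at heF
      have he2 := hfix e heF
      obtain ⟨m, hm⟩ := hcomm i k e (Ne.symm hk.1) (Ne.symm he.2.2.1) hiF hkF heF
      refine comm_free (X := Fin n) (I := i) (K := k) (E := e) (cyc_1 (Ne.symm hk.1) (Ne.symm he.1) (Ne.symm he.2.2.1))
        (cyc_2 (Ne.symm hk.1) (Ne.symm he.1) (Ne.symm he.2.2.1)) (cyc_3 (Ne.symm hk.1) (Ne.symm he.1) (Ne.symm he.2.2.1))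
        rfl rfl rfl (hυυ i) (hυυ k) (hυυ e) ?_ ?_ ?_ he.1 hm
      · exact cyc_of_ne hi (Ne.symm hk.2) (Ne.symm he.2.1)
      · exact cyc_of_ne e1 hk2 (Ne.symm he.2.2.2)
      · refine cyc_of_ne ?_ ?_ he2
        · intro h6
          have h7 : ψ u e = i := h6
          exact he.2.1 (by rw [← h7, hυυ])
        · intro h6
          have h7 : ψ u e = k := h6
          exact he.2.2.2 (by rw [← h7, hυυ])
  have hN := eq_bot_of_chP hch (NF_le h t) (NF_norm h t) key
  obtain ⟨a, ha, b, hb, c, hc, hab, hac, hbc⟩ := Finset.two_lt_card.1 (by omega : 2 < F.card)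
  rw [memF] at ha hb hc
  obtain ⟨g, hg⟩ := h.ev (cyc a b c) (sign_cyc hab hbc)
  have hgN : g ∈ NF ψ t := by
    rw [mem_NF, hg]
    refine ⟨fun i hi => ?_, sign_cyc hab hbc⟩
    exact cyc_of_ne (by rintro rfl; exact hi ha) (by rintro rfl; exact hi hb) (by rintro rfl; exact hi hc)
  rw [hN, mem_bot] at hgN
  rw [hgN, map_one] at hg
  have h5 : cyc a b c a = b := cyc_1 hab hac hbc
  rw [← hg] at h5
  exact hab h5

/-- an involution of `C_G(S)` supported on the fixed points of `t` -/
theorem Rep.exists_sub [Finite G] (h : Rep ψ) (S : Sylow 2 G) {t : G}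
    (ht : t ∈ centralizer ((S : Subgroup G) : Set G)) (h4 : 4 ≤ (Finset.univ.filter fun i => ψ t i = i).card) :
    ∃ t' ∈ centralizer ((S : Subgroup G) : Set G), t' ≠ 1 ∧ t' ^ 2 = 1 ∧ ∀ i, ψ t i ≠ i → ψ t' i = i := by
  classical
  set F := Finset.univ.filter fun i => ψ t i = i with hF
  have memF : ∀ i, i ∈ F ↔ ψ t i = i := fun i => by rw [hF, Finset.mem_filter]; simp
  obtain ⟨a, ha, b, hb, c, hc, hab, hac, hbc⟩ := Finset.two_lt_card.1 (by omega : 2 < F.card)
  have hs3 : ({a, b, c} : Finset (Fin n)).card ≤ 3 := Finset.card_le_three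
  obtain ⟨d, hdF, hd⟩ := Finset.exists_mem_notMem_of_card_lt_card (s := ({a, b, c} : Finset (Fin n))) (t := F) (by omega)
  simp only [Finset.mem_insert, Finset.mem_singleton, not_or] at hd
  rw [memF] at ha hb hc hdF
  have hsg : sign (swap a b * swap c d) = 1 := by
    rw [map_mul, sign_swap hab, sign_swap (Ne.symm hd.2.2)]; rfl
  have hval : (swap a b * swap c d) a = b := by
    rw [Perm.mul_apply, swap_apply_of_ne_of_ne hac (Ne.symm hd.1), swap_apply_left]
  obtain ⟨w, hw⟩ := h.ev _ hsg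
  have hwN : w ∈ NF ψ t := by
    rw [mem_NF, hw]
    refine ⟨fun i hi => ?_, hsg⟩
    have i1 : i ≠ a := by rintro rfl; exact hi ha
    have i2 : i ≠ b := by rintro rfl; exact hi hb
    have i3 : i ≠ c := by rintro rfl; exact hi hc
    have i4 : i ≠ d := by rintro rfl; exact hi hdF
    rw [Perm.mul_apply, swap_apply_of_ne_of_ne i3 i4, swap_apply_of_ne_of_ne i1 i2]
  have hw1 : w ≠ 1 := by
    rintro rfl
    rw [map_one] at hw
    rw [← hw] at hval
    exact hab hval
  have hw2 : w ^ 2 = 1 := by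
    apply h.inj
    rw [map_pow, hw, map_one, pow_two]
    have hd1 : (swap a b).Disjoint (swap c d) := by
      intro x
      by_cases hx : x = a ∨ x = b
      · right
        rcases hx with rfl | rfl
        · exact swap_apply_of_ne_of_ne hac (Ne.symm hd.1)
        · exact swap_apply_of_ne_of_ne hbc (Ne.symm hd.2.1)
      · push Not at hx
        exact Or.inl (swap_apply_of_ne_of_ne hx.1 hx.2)
    calc swap a b * swap c d * (swap a b * swap c d) = swap a b * (swap c d * swap a b) * swap c d := by group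
      _ = swap a b * (swap a b * swap c d) * swap c d := by rw [hd1.commute.eq]
      _ = (swap a b * swap a b) * (swap c d * swap c d) := by group
      _ = 1 := by rw [swap_mul_self, swap_mul_self, one_mul]
  obtain ⟨z, hzN, hz1, hz2, hz3⟩ := Cx.exists_central_le S (Cx.S_le_cent ht) (NF_le h t) (NF_norm h t) hwN hw1 hw2
  exact ⟨z, hz1, hz2, hz3, hzN.1⟩

end Cfsg.Agent.H282.LT
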