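import Cfsg.Agent.H282.LT.AltB

/-!
# S2927, alternating socle: `V` lies in the base group of `C_G(z)`, and the case of one fixed point
-/

set_option autoImplicit false
set_option linter.unusedSectionVars false
open Cfsg Subgroup
open Cfsg.Agent.H229 Cfsg.Agent.H230 Cfsg.Agent.H252.LT

namespace Cfsg.Agent.H282.LT

open Equiv Equiv.Perm
open scoped commutatorElement Pointwise

section Trans

variable {α : Type*} [DecidableEq α] [Fintype α]

theorem swap_disj {a b c d : α} (h1 : a ≠ c) (h2 : a ≠ d) (h3 : b ≠ c) (h4 : b ≠ d) :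
    (swap a b).Disjoint (swap c d) := by
  intro x
  by_cases hx : x = a ∨ x = b
  · right
    rcases hx with rfl | rfl
    · exact swap_apply_of_ne_of_ne h1 h2
    · exact swap_apply_of_ne_of_ne h3 h4
  · push Not at hx
    exact Or.inl (swap_apply_of_ne_of_ne hx.1 hx.2)

theorem exists_trans1 {z : Perm α} (hz : z * z = 1) {i j : α} (hi : z i ≠ i) (hj : z j ≠ j) :
    ∃ c : Perm α, c * z = z * c ∧ sign c = 1 ∧ c i ∈ bl z j ∧ ∀ l, l ∉ bl z i → l ∉ bl z j → c l = l := by
  have hzz : ∀ x, z (z x) = x := fun x => congrArg (fun f : Perm α => f x) hz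
  by_cases hij : j ∈ bl z i
  · exact ⟨1, by rw [one_mul, mul_one], map_one _, bl_symm hz hij, fun l _ _ => rfl⟩
  · rw [mem_bl, not_or] at hij
    have h1 : i ≠ j := Ne.symm hij.1
    have h2 : i ≠ z j := fun h => hij.2 (by rw [h, hzz])
    have h3 : z i ≠ j := Ne.symm hij.2
    have h4 : z i ≠ z j := fun h => h1 (z.injective h)
    have hd : (swap i j).Disjoint (swap (z i) (z j)) := swap_disj hi.symm h2 (Ne.symm h3) hj.symm
    have hzi : z⁻¹ = z := inv_eq_of_mul_eq_one_right hz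
    refine ⟨swap i j * swap (z i) (z j), ?_, ?_, ?_, ?_⟩
    · have h5 : z * (swap i j * swap (z i) (z j)) * z⁻¹ = swap i j * swap (z i) (z j) := by
        calc z * (swap i j * swap (z i) (z j)) * z⁻¹
            = (z * swap i j * z⁻¹) * (z * swap (z i) (z j) * z⁻¹) := by group
          _ = swap (z i) (z j) * swap i j := by
              rw [← Equiv.swap_apply_apply, ← Equiv.swap_apply_apply, hzz, hzz]
          _ = swap i j * swap (z i) (z j) := hd.commute.eq.symm
      have h6 := congrArg (· * z) h5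
      simp only [inv_mul_cancel_right] at h6
      exact h6.symm
    · rw [map_mul, sign_swap h1, sign_swap h4]; rfl
    · rw [Perm.mul_apply, swap_apply_of_ne_of_ne hi.symm h2, swap_apply_left]
      exact self_mem_bl _ _
    · intro l h5 h6
      rw [mem_bl, not_or] at h5 h6
      rw [Perm.mul_apply, swap_apply_of_ne_of_ne h5.2 h6.2, swap_apply_of_ne_of_ne h5.1 h6.1]

theorem comm_moved {z c : Perm α} (hc : c * z = z * c) {i : α} (hi : z i ≠ i) : z (c i) ≠ c i := by
  intro h1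
  have h2 := congrArg (fun f : Perm α => f i) hc
  simp only [Perm.mul_apply, h1] at h2
  exact hi (c.injective h2)

theorem comm_inj {z c : Perm α} (hc : c * z = z * c) {i j : α} (h1 : c i ∈ bl z (c j)) : i ∈ bl z j := by
  rcases mem_bl.1 h1 with h2 | h2
  · rw [c.injective h2]; exact self_mem_bl _ _
  · have h3 := congrArg (fun f : Perm α => f j) hc
    simp only [Perm.mul_apply] at h3
    rw [← h3] at h2
    rw [c.injective h2]
    exact mem_bl.2 (Or.inr rfl)

theorem exists_trans2 {z : Perm α} (hz : z * z = 1) {i p j k : α} (hi : z i ≠ i) (hp : z p ≠ p) (hj : z j ≠ j)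
    (hk : z k ≠ k) (hip : p ∉ bl z i) (hjk : k ∉ bl z j) :
    ∃ c : Perm α, c * z = z * c ∧ sign c = 1 ∧ c i ∈ bl z j ∧ c p ∈ bl z k := by
  obtain ⟨c₁, a1, a2, a3, -⟩ := exists_trans1 hz hi hj
  have hp1 := comm_moved a1 hp
  obtain ⟨c₂, b1, b2, b3, b4⟩ := exists_trans1 hz hp1 hk
  have h1 : c₁ p ∉ bl z j := by
    intro h1
    apply hip
    apply comm_inj a1
    rw [bl_eq hz a3]; exact h1
  refine ⟨c₂ * c₁, ?_, ?_, ?_, b3⟩
  · rw [mul_assoc, a1, ← mul_assoc, b1, mul_assoc]
  · rw [map_mul, a2, b2]; rfl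
  · rw [Perm.mul_apply, b4]
    · exact a3
    · intro h2
      apply h1
      have h3 := bl_symm hz h2
      rw [bl_eq hz a3] at h3
      exact h3
    · intro h2
      apply hjk
      have h3 := bl_symm hz h2
      rw [bl_eq hz a3] at h3
      exact h3

end Trans

variable {G : Type*} [Group G] {n : ℕ} {ψ : G →* Perm (Fin n)}

theorem Rep.exists_lift (h : Rep ψ) {z : G} {c : Perm (Fin n)} (hc : c * ψ z = ψ z * c) (hs : sign c = 1) :
    ∃ g ∈ centralizer ({z} : Set G), ψ g = c := by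
  obtain ⟨g, hg⟩ := h.ev c hs
  exact ⟨g, by rw [h.mem_cent, hg]; exact hc, hg⟩

/-- **the base group**: an elementary abelian normal subgroup `V` of `C_G(z)` containing an element with a fixed
point and a moved point in the support of `z` preserves the blocks of `z`. -/
theorem Rep.base (h : Rep ψ) {z : G} (hz : z ^ 2 = 1) {V : Subgroup G} (hV : IsElementaryAbelian 2 V)
    (hVc : V ≤ centralizer ({z} : Set G)) (hVn : centralizer ({z} : Set G) ≤ normalizer (V : Set G)) {x : G}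
    (hx : x ∈ V) {p q : Fin n} (hp : ψ z p ≠ p) (hxp : ψ x p = p) (hq : ψ z q ≠ q) (hxq : ψ x q ≠ q) :
    ∀ y ∈ V, ∀ j, ψ z j ≠ j → ψ y j ∈ bl (ψ z) j := by
  classical
  have hζ := Rep.sq ψ hz
  have hζζ : ∀ l, ψ z (ψ z l) = l := fun l => congrArg (fun f : Perm (Fin n) => f l) hζ
  have hsq : ∀ y ∈ V, ∀ l, ψ y (ψ y l) = l := fun y hy l =>
    congrArg (fun f : Perm (Fin n) => f l) (Rep.sq ψ (hV.2 y hy))
  have hcz : ∀ y ∈ V, ψ y * ψ z = ψ z * ψ y := fun y hy => h.mem_cent.1 (hVc hy)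
  have hcz' : ∀ y ∈ V, ∀ l, ψ y (ψ z l) = ψ z (ψ y l) := fun y hy l =>
    congrArg (fun f : Perm (Fin n) => f l) (hcz y hy)
  have step1 : ∀ j, ψ z j ≠ j → ψ x j ∈ bl (ψ z) j := by
    intro j hj
    by_contra hcon
    have hpj : p ∉ bl (ψ z) j := by
      intro h1
      apply hcon
      have h2 := smul_mem_bl (hcz x hx) h1
      rw [hxp, ] at h2
      have h3 := bl_eq hζ h2
      rw [bl_eq hζ h1] at h3
      rw [h3]; exact self_mem_bl _ _
    have hpj2 : p ∉ bl (ψ z) (ψ x j) := by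
      intro h1
      apply hpj
      have h2 := smul_mem_bl (hcz x hx) h1
      rwa [hxp, hsq x hx] at h2
    obtain ⟨c, hc1, hc2, hc3, hc4, hc5, -⟩ := exists_dcyc hζ hj (comm_moved (hcz x hx) hj) hp hcon hpj hpj2
    obtain ⟨g, hgC, hg⟩ := h.exists_lift hc1 hc2
    have h1 : ⁅x, g⁆ ∈ V := by
      have h2 := le_norm_iff.1 hVn g hgC x⁻¹ (inv_mem hx)
      have e : ⁅x, g⁆ = x * (g * x⁻¹ * g⁻¹) := by rw [commutatorElement_def]; group
      rw [e]; exact mul_mem hx h2
    have hk : ⁅ψ x, c⁆ ^ 2 ^ 1 = 1 := by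
      rw [← hg, ← map_commutatorElement, ← map_pow, pow_one, hV.2 _ h1, map_one]
    refine comm_fix (X := Finset (Fin n)) (u := ψ x) (c := c) (I := bl (ψ z) j) (J := bl (ψ z) (ψ x j))
      (E := bl (ψ z) p) ?_ ?_ ?_ (smul_bl (hcz x hx) j) ?_ ?_ ?_ hk
    · rw [smul_bl hc1, hc3]
    · rw [smul_bl hc1, hc4]
    · rw [smul_bl hc1, hc5]
    · rw [smul_bl (hcz x hx), hsq x hx]
    · rw [smul_bl (hcz x hx), hxp]
    · intro h2
      exact hpj ((bl_eq_iff hζ).1 h2.symm)
  have hxq' : ψ x q = ψ z q := by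
    rcases mem_bl.1 (step1 q hq) with h1 | h1
    · exact absurd h1 hxq
    · exact h1
  have hpq : p ∉ bl (ψ z) q := by
    intro h1
    rcases mem_bl.1 h1 with h2 | h2
    · rw [h2] at hxp; exact hxq hxp
    · rw [h2, hcz' x hx, hxq', hζζ] at hxp
      exact hq hxp.symm
  intro y hy j hj
  by_contra hcon
  have hcon' : ψ y j ∉ bl (ψ z) j := hcon
  obtain ⟨c, hc1, hc2, hc3, hc4⟩ := exists_trans2 hζ hq hp hj (comm_moved (hcz y hy) hj) hpq hcon'
  obtain ⟨g, hgC, hg⟩ := h.exists_lift hc1 hc2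
  have hx' : g * x * g⁻¹ ∈ V := le_norm_iff.1 hVn g hgC x hx
  set x' := g * x * g⁻¹ with hx'd
  have hx'v : ∀ l, ψ x' (c l) = c (ψ x l) := by
    intro l
    rw [hx'd, map_mul, map_mul, map_inv, hg, Perm.mul_apply, Perm.mul_apply]
    congr 1
    congr 1
    rw [← Perm.mul_apply, inv_mul_cancel]; rfl
  have hcc : ∀ l, c (ψ z l) = ψ z (c l) := fun l => congrArg (fun f : Perm (Fin n) => f l) hc1
  have h1 : ψ x' (ψ y j) = ψ y j := by
    rcases mem_bl.1 hc4 with h2 | h2
    · rw [← h2, hx'v, hxp]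
    · have h3 : ψ x' (ψ z (ψ y j)) = ψ z (ψ y j) := by rw [← h2, hx'v, hxp]
      rw [hcz' x' hx'] at h3
      exact (ψ z).injective h3
  have h2 : ψ x' j = ψ z j := by
    rcases mem_bl.1 hc3 with h2 | h2
    · rw [← h2, hx'v, hxq', hcc]
    · have h3 : ψ x' (ψ z j) = j := by rw [← h2, hx'v, hxq', hcc, h2, hζζ]
      rw [hcz' x' hx'] at h3
      rw [← h3, hζζ, h3]
  have h3 : ψ y (ψ x' j) = ψ x' (ψ y j) := by
    have h4 : y * x' = x' * y := ea_comm hV hy hx'
    have h5 := congrArg (fun f : G => ψ f j) h4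
    simpa only [map_mul, Perm.mul_apply] using h5
  rw [h1, h2, hcz' y hy] at h3
  exact comm_moved (hcz y hy) hj h3

/-- an involution with as many moved points as `z` is conjugate to `z` -/
theorem Rep.chP_of_card (h : Rep ψ) {x z : G} (hx : x ^ 2 = 1) (hz : z ^ 2 = 1) (hz1 : z ≠ 1)
    (hc : (ψ x).support.card = (ψ z).support.card) (hch : ChP 2 (centralizer ({z} : Set G))) :
    ChP 2 (centralizer ({x} : Set G)) := by
  classical
  have hx2 := Rep.sq ψ hx
  have hz2 := Rep.sq ψ hz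
  have hcyc : ∀ g : Perm (Fin n), g * g = 1 → g.cycleType = Multiset.replicate (g.support.card / 2) 2 := by
    intro g hg
    have h1 : ∀ k ∈ g.cycleType, k = 2 := by
      intro k hk
      have h2 := Equiv.Perm.two_le_of_mem_cycleType hk
      have h3 : k ∣ orderOf g := Equiv.Perm.dvd_of_mem_cycleType hk
      have h4 : orderOf g ∣ 2 := orderOf_dvd_of_pow_eq_one (by rw [pow_two]; exact hg)
      exact le_antisymm (Nat.le_of_dvd (by norm_num) (h3.trans h4)) h2
    have h5 := Multiset.eq_replicate_of_mem h1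
    have h6 := Equiv.Perm.sum_cycleType g
    rw [h5, Multiset.sum_replicate, smul_eq_mul] at h6
    rw [h5]
    congr 1
    omega
  have h1 : IsConj (ψ z) (ψ x) := by
    rw [isConj_iff_cycleType_eq, hcyc _ hx2, hcyc _ hz2, hc]
  obtain ⟨σ, hσ⟩ := isConj_iff.1 h1
  obtain ⟨a, ha⟩ := h.ne_one hz1
  have hzz : ∀ l, ψ z (ψ z l) = l := fun l => congrArg (fun f : Perm (Fin n) => f l) hz2
  obtain ⟨τ, hτ1, hτ2⟩ : ∃ τ : Perm (Fin n), sign τ = 1 ∧ τ * ψ z * τ⁻¹ = ψ x := by
    rcases Int.units_eq_one_or (sign σ) with h2 | h2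
    · exact ⟨σ, h2, hσ⟩
    · refine ⟨σ * swap a (ψ z a), ?_, ?_⟩
      · rw [map_mul, h2, sign_swap ha.symm]; rfl
      · have h3 : swap a (ψ z a) * ψ z * (swap a (ψ z a))⁻¹ = ψ z := by
          have h4 : ψ z * swap a (ψ z a) * (ψ z)⁻¹ = swap a (ψ z a) := by
            rw [← Equiv.swap_apply_apply, hzz, swap_comm]
          have h5 : ψ z * swap a (ψ z a) = swap a (ψ z a) * ψ z := by
            have h6 := congrArg (· * ψ z) h4
            simpa only [inv_mul_cancel_right] using h6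
          rw [← h5, mul_inv_cancel_right]
        calc σ * swap a (ψ z a) * ψ z * (σ * swap a (ψ z a))⁻¹
            = σ * (swap a (ψ z a) * ψ z * (swap a (ψ z a))⁻¹) * σ⁻¹ := by group
          _ = ψ x := by rw [h3, hσ]
  obtain ⟨g, hg⟩ := h.ev τ hτ1
  have h3 : g * z * g⁻¹ = x := by
    apply h.inj
    rw [map_mul, map_mul, map_inv, hg, hτ2]
  have h4 : centralizer ({x} : Set G) = cj g (centralizer ({z} : Set G)) := by
    ext y
    rw [mem_cj, mem_centralizer_singleton_iff, mem_centralizer_singleton_iff, ← h3]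
    constructor
    · intro h5
      calc g⁻¹ * y * g * z = g⁻¹ * (y * (g * z * g⁻¹)) * g := by group
        _ = g⁻¹ * (g * z * g⁻¹ * y) * g := by rw [h5]
        _ = z * (g⁻¹ * y * g) := by group
    · intro h5
      calc y * (g * z * g⁻¹) = g * (g⁻¹ * y * g * z) * g⁻¹ := by group
        _ = g * (z * (g⁻¹ * y * g)) * g⁻¹ := by rw [h5]
        _ = g * z * g⁻¹ * y := by group
  rw [h4]
  exact hch.cj g

end Cfsg.Agent.H282.LT
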