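import Cfsg.Agent.H282.LT.AltD
import Cfsg.Agent.S2119

/-!
# S2927: the alternating row

`dead_alt` : no `Cx` in a group with alternating socle of degree `n ≥ 7`, `n ≠ 8`.
-/

set_option autoImplicit false
set_option linter.unusedSectionVars false
open Cfsg Subgroup
open Cfsg.Agent.H229 Cfsg.Agent.H230 Cfsg.Agent.H252.LT

universe u

namespace Cfsg.Agent.H282.LT

open Equiv Equiv.Perm
open scoped commutatorElement Pointwise

theorem invol_cycleType {n : ℕ} {g : Perm (Fin n)} (hg : g * g = 1) :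
    g.cycleType = Multiset.replicate (g.support.card / 2) 2 ∧ 2 * (g.support.card / 2) = g.support.card := by
  have h1 : ∀ k ∈ g.cycleType, k = 2 := by
    intro k hk
    have h2 := Equiv.Perm.two_le_of_mem_cycleType hk
    have h3 : k ∣ orderOf g := Equiv.Perm.dvd_of_mem_cycleType hk
    have h4 : orderOf g ∣ 2 := orderOf_dvd_of_pow_eq_one (by rw [pow_two]; exact hg)
    exact le_antisymm (Nat.le_of_dvd (by norm_num) (h3.trans h4)) h2
  have h5 := Multiset.eq_replicate_of_mem h1
  have h6 := Equiv.Perm.sum_cycleType g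
  rw [h5, Multiset.sum_replicate, smul_eq_mul] at h6
  refine ⟨?_, by omega⟩
  rw [h5]
  congr 1
  omega

theorem four_dvd {n : ℕ} {g : Perm (Fin n)} (hg : g * g = 1) (hs : sign g = 1) : 4 ∣ g.support.card := by
  obtain ⟨h1, h2⟩ := invol_cycleType hg
  rw [sign_of_cycleType, h1, Multiset.sum_replicate, Multiset.card_replicate, smul_eq_mul] at hs
  set k := g.support.card / 2 with hk
  have h3 : Even k := by
    by_contra h4
    rw [Nat.not_even_iff_odd] at h4
    have h5 : Odd (k * 2 + k) := by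
      obtain ⟨m, hm⟩ := h4
      exact ⟨3 * m + 1, by omega⟩
    rw [h5.neg_one_pow] at hs
    exact absurd hs (by decide)
  obtain ⟨m, hm⟩ := h3
  exact ⟨m, by omega⟩

theorem card_fix_add {n : ℕ} (g : Perm (Fin n)) :
    (Finset.univ.filter fun i => g i = i).card + g.support.card = n := by
  have h1 := Finset.card_filter_add_card_filter_not (s := (Finset.univ : Finset (Fin n))) (fun i => g i = i)
  rw [Finset.card_univ, Fintype.card_fin] at h1
  have h2 : (Finset.univ.filter fun i => ¬ g i = i) = g.support := by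
    ext i; rw [Finset.mem_filter, mem_support]; simp
  rw [h2] at h1
  exact h1

variable {G : Type*} [Group G] {n : ℕ} {ψ : G →* Perm (Fin n)} [Finite G] {S : Sylow 2 G} {Q M : Subgroup G}

/-- two fixed points, eight moved points (`n = 10`) -/
theorem Rep.dead_two (h : Rep ψ) (c : Cx S Q M) {z : G}
    (hz : z ∈ centralizer ((S : Subgroup G) : Set G)) (hz1 : z ≠ 1) (hz2 : z ^ 2 = 1)
    (hF : (Finset.univ.filter fun i => ψ z i = i).card = 2) (hs : (ψ z).support.card = 8) : False := by
  classical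
  have hn : n = 10 := by have := card_fix_add (ψ z); omega
  obtain ⟨a, b, hab, hf⟩ := Finset.card_eq_two.1 hF
  have hF' : ∀ i, ψ z i = i ↔ i = a ∨ i = b := by
    intro i
    have : i ∈ Finset.univ.filter (fun i => ψ z i = i) ↔ i ∈ ({a, b} : Finset (Fin n)) := by rw [hf]
    simpa using this
  have hza : ψ z a = a := (hF' a).2 (Or.inl rfl)
  have hzb : ψ z b = b := (hF' b).2 (Or.inr rfl)
  have hζ := Rep.sq ψ hz2
  have hζζ : ∀ l, ψ z (ψ z l) = l := fun l => congrArg (fun f : Perm (Fin n) => f l) hζ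
  have hzY := c.center_mem_Y hz hz2
  have hzV := c.Y_le_V hzY
  have hVc := V_le_cent c hzV
  have hVn := (c.cent_le_norm_Q hz hz1).trans c.norm_V
  have hcz' : ∀ y ∈ centralizer ({z} : Set G), ∀ l, ψ y (ψ z l) = ψ z (ψ y l) := fun y hy l =>
    congrArg (fun f : Perm (Fin n) => f l) (h.mem_cent.1 hy)
  have hcz : ∀ y ∈ c.V, ∀ l, ψ y (ψ z l) = ψ z (ψ y l) := fun y hy => hcz' y (hVc hy)
  have hswap : ∀ y ∈ centralizer ({z} : Set G), ψ y * swap a b = swap a b * ψ y := by
    intro y hy
    have h1 : ψ y a = a ∨ ψ y a = b := by rw [← hF', ← hcz' y hy, hza]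
    have h2 : ψ y b = a ∨ ψ y b = b := by rw [← hF', ← hcz' y hy, hzb]
    have h3 : ψ y * swap a b * (ψ y)⁻¹ = swap a b := by
      rw [← Equiv.swap_apply_apply]
      rcases h1 with h1 | h1 <;> rcases h2 with h2 | h2
      · exact absurd ((ψ y).injective (h1.trans h2.symm)) hab
      · rw [h1, h2]
      · rw [h1, h2, swap_comm]
      · exact absurd ((ψ y).injective (h1.trans h2.symm)) hab
    have h4 := congrArg (· * ψ y) h3
    simpa only [inv_mul_cancel_right] using h4
  -- all elements are even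
  have hev : ∀ g : G, sign (ψ g) = 1 := by
    intro g
    rcases Int.units_eq_one_or (sign (ψ g)) with h1 | h1
    · exact h1
    · exfalso
      obtain ⟨g', hg'⟩ := h.ev (ψ g * swap a b) (by rw [map_mul, h1, sign_swap hab]; rfl)
      set t := g⁻¹ * g' with ht
      have htt : ψ t = swap a b := by rw [ht, map_mul, map_inv, hg']; group
      have htS : t ∈ centralizer ((S : Subgroup G) : Set G) := by
        rw [mem_centralizer_iff]
        intro s hs
        apply h.inj
        rw [map_mul ψ s t, map_mul ψ t s, htt]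
        exact hswap s (Cx.S_le_cent hz hs)
      have ht1 : t ≠ 1 := by
        intro h2
        rw [h2, map_one] at htt
        have h3 : (swap a b) a = b := swap_apply_left a b
        rw [← htt] at h3
        exact hab h3
      have h2 : (ψ t).support.card = 2 := by rw [htt]; exact card_support_swap hab
      have h3 := card_fix_add (ψ t)
      have h4 := h.card_fix (c.chP_cent htS ht1) (by omega)
      omega
  obtain ⟨x, hxY, hx1, hxb⟩ := c.bad
  have hxV := c.Y_le_V hxY
  have hx2 := c.Y_ea.2 x hxY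
  have hcard : (ψ x).support.card ≠ (ψ z).support.card := fun h1 =>
    hxb (h.chP_of_card hx2 hz2 hz1 h1 (c.chP_cent hz hz1))
  have hx4 := four_dvd (Rep.sq ψ hx2) (hev x)
  have hx0 : 0 < (ψ x).support.card := by
    obtain ⟨i, hi⟩ := h.ne_one hx1
    exact Finset.card_pos.2 ⟨i, mem_support.2 hi⟩
  have hxn := card_fix_add (ψ x)
  have hx5 : (ψ x).support.card = 4 := by omega
  obtain ⟨p₀, hp1, hp2⟩ := Finset.exists_mem_notMem_of_card_lt_card (s := (ψ x).support) (t := (ψ z).support) (by omega)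
  obtain ⟨q₀, hq1, hq2⟩ := Finset.exists_mem_notMem_of_card_lt_card (s := ({a, b} : Finset (Fin n)))
    (t := (ψ x).support) (by have := Finset.card_le_two (a := a) (b := b); omega)
  rw [mem_support] at hp1 hp2 hq1
  push Not at hp2
  have hq3 : ψ z q₀ ≠ q₀ := by
    intro h1
    rw [hF'] at h1
    apply hq2
    rw [Finset.mem_insert, Finset.mem_singleton]; exact h1
  have hbase := h.base hz2 c.V_ea hVc hVn hxV hp1 hp2 hq3 hq1
  -- a conjugate `z' ≠ z` of `z` in `Y`
  obtain ⟨z', hz'Y, hz'c, hz'z⟩ : ∃ z' ∈ largestPReducedOf 2 M, (ψ z').support.card = 8 ∧ z' ≠ z := by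
    by_contra hcon
    push Not at hcon
    apply c.not_M_le hz hz2 hz1
    intro m hm
    have h1 := hcon _ (conj_mem_Y c hm hzY) (by rw [card_supp_conj]; exact hs)
    rw [mem_centralizer_singleton_iff]
    calc m * z = (m * z * m⁻¹) * m := by group
      _ = z * m := by rw [h1]
  have hz'V := c.Y_le_V hz'Y
  have hbz := hbase z' hz'V
  obtain ⟨p, hp, hp'⟩ : ∃ p, ψ z p ≠ p ∧ ψ z' p = p := by
    by_contra hcon
    push Not at hcon
    have hsub : (ψ z).support ⊆ (ψ z').support := by
      intro i hi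
      rw [mem_support] at hi ⊢
      exact hcon i hi
    have heq := Finset.eq_of_subset_of_card_le hsub (by omega)
    apply hz'z
    apply h.inj
    ext i
    congr 1
    by_cases hi : ψ z i = i
    · have h1 : i ∉ (ψ z').support := by rw [← heq, mem_support]; exact fun h2 => h2 hi
      rw [mem_support] at h1
      push Not at h1
      rw [h1, hi]
    · rcases mem_bl.1 (hbz i hi) with h1 | h1
      · exact absurd h1 (hcon i hi)
      · exact h1
  have hzp : ψ z' (ψ z p) = ψ z p := by rw [hcz z' hz'V, hp']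
  have hFz' : ∀ i, ψ z' i = i → i = p ∨ i = ψ z p := by
    intro i hi
    have h1 : ({p, ψ z p} : Finset (Fin n)) = Finset.univ.filter fun i => ψ z' i = i := by
      apply Finset.eq_of_subset_of_card_le
      · intro l hl
        simp only [Finset.mem_insert, Finset.mem_singleton] at hl
        rw [Finset.mem_filter]
        refine ⟨Finset.mem_univ _, ?_⟩
        rcases hl with rfl | rfl
        · exact hp'
        · exact hzp
      · have h2 := card_fix_add (ψ z')
        rw [Finset.card_pair (Ne.symm hp)]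
        omega
    have h2 : i ∈ ({p, ψ z p} : Finset (Fin n)) := by rw [h1, Finset.mem_filter]; exact ⟨Finset.mem_univ _, hi⟩
    simpa only [Finset.mem_insert, Finset.mem_singleton] using h2
  have hap : a ≠ p := by rintro rfl; exact hp hza
  have hbp : b ≠ p := by rintro rfl; exact hp hzb
  have hazp : a ≠ ψ z p := by
    intro h1
    apply hap
    rw [h1, hζζ] at hza
    rw [h1, ← hza]
  have hbzp : b ≠ ψ z p := by
    intro h1
    apply hbp
    rw [h1, hζζ] at hzb
    rw [h1, ← hzb]
  -- the permutation `ϖ`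
  set ϖ : Perm (Fin n) := ψ z * swap p (ψ z p) with hϖd
  have w1 : ϖ p = p := by rw [hϖd, Perm.mul_apply, swap_apply_left, hζζ]
  have w2 : ϖ (ψ z p) = ψ z p := by rw [hϖd, Perm.mul_apply, swap_apply_right]
  have w3 : ∀ i, i ≠ p → i ≠ ψ z p → ϖ i = ψ z i := by
    intro i h1 h2
    rw [hϖd, Perm.mul_apply, swap_apply_of_ne_of_ne h1 h2]
  have w4 : ϖ a = a := by rw [w3 a hap hazp, hza]
  have w5 : ϖ b = b := by rw [w3 b hbp hbzp, hzb]
  have hϖ : ϖ * ϖ = 1 := by
    have h1 : ψ z * swap p (ψ z p) * (ψ z)⁻¹ = swap p (ψ z p) := by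
      rw [← Equiv.swap_apply_apply, hζζ, swap_comm]
    have h2 : ψ z * swap p (ψ z p) = swap p (ψ z p) * ψ z := by
      have h3 := congrArg (· * ψ z) h1
      simpa only [inv_mul_cancel_right] using h3
    calc ϖ * ϖ = (ψ z * swap p (ψ z p)) * (swap p (ψ z p) * ψ z) := by rw [← h2]
      _ = ψ z * (swap p (ψ z p) * swap p (ψ z p)) * ψ z := by group
      _ = 1 := by rw [swap_mul_self, mul_one, hζ]
  have hFix : ∀ i, ϖ i = i ↔ i = p ∨ i = ψ z p ∨ i = a ∨ i = b := by
    intro i
    constructor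
    · intro h1
      by_cases h2 : i = p
      · exact Or.inl h2
      by_cases h3 : i = ψ z p
      · exact Or.inr (Or.inl h3)
      rw [w3 i h2 h3, hF'] at h1
      exact Or.inr (Or.inr h1)
    · rintro (rfl | rfl | rfl | rfl) <;> assumption
  have hFc : (Finset.univ.filter fun i => ϖ i = i).card = 4 := by
    have h1 : (Finset.univ.filter fun i => ϖ i = i) = ({p, ψ z p, a, b} : Finset (Fin n)) := by
      ext i
      rw [Finset.mem_filter, hFix]
      simp
    rw [h1, Finset.card_insert_of_notMem, Finset.card_insert_of_notMem, Finset.card_insert_of_notMem,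
      Finset.card_singleton]
    · rw [Finset.mem_singleton]; exact hab
    · simp only [Finset.mem_insert, Finset.mem_singleton, not_or]
      exact ⟨Ne.symm hazp, Ne.symm hbzp⟩
    · simp only [Finset.mem_insert, Finset.mem_singleton, not_or]
      exact ⟨Ne.symm hp, Ne.symm hap, Ne.symm hbp⟩
  have hXc : 5 ≤ (Finset.univ.filter fun i => ϖ i ≠ i).card := by
    have h1 := card_fix_add ϖ
    rw [hFc] at h1
    have h2 : (Finset.univ.filter fun i => ϖ i ≠ i) = ϖ.support := by
      ext i; rw [Finset.mem_filter, mem_support]; simp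
    rw [h2]
    omega
  have hchL := h.chP_LL hϖ hFc hXc
  have hTL : pCoreOf 2 M ≤ LL ψ ϖ := by
    intro t ht
    have h1 := pCoreOf_le_centralizer_largest 2 M ht
    have hc1 : t ∈ centralizer ({z} : Set G) := by
      rw [mem_centralizer_singleton_iff]; exact ((mem_centralizer_iff.1 h1) z hzY).symm
    have hc2 : t ∈ centralizer ({z'} : Set G) := by
      rw [mem_centralizer_singleton_iff]; exact ((mem_centralizer_iff.1 h1) z' hz'Y).symm
    have hc2' : ∀ l, ψ t (ψ z' l) = ψ z' (ψ t l) := fun l =>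
      congrArg (fun f : Perm (Fin n) => f l) (h.mem_cent.1 hc2)
    rw [mem_LL]
    have h2 : ψ t p = p ∨ ψ t p = ψ z p := hFz' _ (by rw [← hc2', hp'])
    have h3 : ψ t * swap p (ψ z p) * (ψ t)⁻¹ = swap p (ψ z p) := by
      rw [← Equiv.swap_apply_apply, hcz' t hc1]
      rcases h2 with h2 | h2
      · rw [h2]
      · rw [h2, hζζ, swap_comm]
    have h4 : ψ t * swap p (ψ z p) = swap p (ψ z p) * ψ t := by
      have h5 := congrArg (· * ψ t) h3
      simpa only [inv_mul_cancel_right] using h5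
    rw [hϖd, ← mul_assoc, h.mem_cent.1 hc1, mul_assoc, h4, ← mul_assoc]
  have hzL := c.short (LL ψ ϖ) hTL hchL hzY
  -- the 3-cycle
  have hc3 : ϖ * cyc p (ψ z p) a * ϖ⁻¹ = cyc p (ψ z p) a := by rw [conj_cyc, w1, w2, w4]
  have hsg := sign_cyc (i := p) (j := ψ z p) (e := a) (Ne.symm hp) (Ne.symm hazp)
  obtain ⟨g, hg⟩ := h.ev _ hsg
  have hgL : g ∈ LL ψ ϖ := by
    rw [mem_LL, hg]
    have h4 := congrArg (· * ϖ) hc3
    simp only [inv_mul_cancel_right] at h4
    exact h4.symm
  have h1 : ⁅z, g⁆ ∈ pCoreOf 2 (LL ψ ϖ) := by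
    have h2 := le_norm_iff.1 (le_norm_pCoreOf 2 (LL ψ ϖ)) g hgL z⁻¹ (inv_mem hzL)
    have e : ⁅z, g⁆ = z * (g * z⁻¹ * g⁻¹) := by rw [commutatorElement_def]; group
    rw [e]; exact mul_mem hzL h2
  obtain ⟨k, hk⟩ := (isPGroup_pCoreOf 2 (LL ψ ϖ)) ⟨_, h1⟩
  have hk' : ⁅ψ z, cyc p (ψ z p) a⁆ ^ 2 ^ k = 1 := by
    have h3 : ⁅z, g⁆ ^ 2 ^ k = 1 := congrArg Subtype.val hk
    rw [← hg, ← map_commutatorElement, ← map_pow, h3, map_one]
  exact comm_fix (X := Fin n) (u := ψ z) (cyc_1 (Ne.symm hp) (Ne.symm hap) (Ne.symm hazp))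
    (cyc_2 (Ne.symm hp) (Ne.symm hap) (Ne.symm hazp)) (cyc_3 (Ne.symm hp) (Ne.symm hap) (Ne.symm hazp)) rfl
    (hζζ p) hza (Ne.symm hap) hk'

/-- **no counterexample between `A_n` and `S_n`**, `n ≥ 7`, `n ≠ 8` -/
theorem Rep.dead (h : Rep ψ) (c : Cx S Q M) (hn : 7 ≤ n) (hn8 : n ≠ 8) : False := by
  classical
  set N₀ : Subgroup G := ((sign : Perm (Fin n) →* ℤˣ).comp ψ).ker with hN₀
  have memN : ∀ g, g ∈ N₀ ↔ sign (ψ g) = 1 := fun g => by rw [hN₀, MonoidHom.mem_ker]; rfl
  let i0 : Fin n := ⟨0, by omega⟩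
  let i1 : Fin n := ⟨1, by omega⟩
  let i2 : Fin n := ⟨2, by omega⟩
  let i3 : Fin n := ⟨3, by omega⟩
  have n01 : i0 ≠ i1 := by simp [i0, i1]
  have n02 : i0 ≠ i2 := by simp [i0, i2]
  have n03 : i0 ≠ i3 := by simp [i0, i3]
  have n12 : i1 ≠ i2 := by simp [i1, i2]
  have n13 : i1 ≠ i3 := by simp [i1, i3]
  have n23 : i2 ≠ i3 := by simp [i2, i3]
  have hsg : sign (swap i0 i1 * swap i2 i3) = 1 := by
    rw [map_mul, sign_swap n01, sign_swap n23]; rfl
  obtain ⟨w, hw⟩ := h.ev _ hsg
  have hwN : w ∈ N₀ := by rw [memN, hw]; exact hsg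
  have hw1 : w ≠ 1 := by
    rintro rfl
    rw [map_one] at hw
    have h1 : (swap i0 i1 * swap i2 i3) i0 = i1 := by
      rw [Perm.mul_apply, swap_apply_of_ne_of_ne n02 n03, swap_apply_left]
    rw [← hw] at h1
    exact n01 h1
  have hw2 : w ^ 2 = 1 := by
    apply h.inj
    rw [map_pow, hw, map_one, pow_two]
    have hd := swap_disj n02 n03 n12 n13
    calc swap i0 i1 * swap i2 i3 * (swap i0 i1 * swap i2 i3)
        = swap i0 i1 * (swap i2 i3 * swap i0 i1) * swap i2 i3 := by group
      _ = swap i0 i1 * (swap i0 i1 * swap i2 i3) * swap i2 i3 := by rw [hd.commute.eq]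
      _ = (swap i0 i1 * swap i0 i1) * (swap i2 i3 * swap i2 i3) := by group
      _ = 1 := by rw [swap_mul_self, swap_mul_self, one_mul]
  obtain ⟨z, hzN, hz, hz1, hz2⟩ := Cx.exists_central_mem S hwN hw1 hw2
  rw [memN] at hzN
  have h4 := four_dvd (Rep.sq ψ hz2) hzN
  have h5 := card_fix_add (ψ z)
  have h0 : 0 < (ψ z).support.card := by
    obtain ⟨i, hi⟩ := h.ne_one hz1
    exact Finset.card_pos.2 ⟨i, mem_support.2 hi⟩
  have hX : (Finset.univ.filter fun i => ψ z i ≠ i) = (ψ z).support := by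
    ext i; rw [Finset.mem_filter, mem_support]; simp
  by_cases h3 : 3 ≤ (Finset.univ.filter fun i => ψ z i = i).card
  · have h6 := h.card_fix (c.chP_cent hz hz1) h3
    obtain ⟨t, ht, ht1, ht2, ht3⟩ := h.exists_sub S hz (by omega)
    have h7 : (ψ t).support ⊆ Finset.univ.filter fun i => ψ z i = i := by
      intro i hi
      rw [mem_support] at hi
      rw [Finset.mem_filter]
      refine ⟨Finset.mem_univ _, ?_⟩
      by_contra h8
      exact hi (ht3 i h8)
    have h8 := Finset.card_le_card h7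
    have h9 := card_fix_add (ψ t)
    have h10 := h.card_fix (c.chP_cent ht ht1) (by omega)
    omega
  · by_cases h6 : 10 ≤ (ψ z).support.card
    · exact h.dead_of_large c hz hz1 hz2 (by omega) (by rw [hX]; exact h6)
    · by_cases h7 : n = 9
      · exact h.dead_one c hz hz1 hz2 (by omega)
      · exact h.dead_two c hz hz1 hz2 (by omega) (by omega)

/-- the representation of `G` on `n` points -/
theorem exists_rep {G : Type*} [Group G] (K : Subgroup G) [K.Normal]
    (hCK : Subgroup.centralizer (K : Set G) = ⊥) {n : ℕ} (hn : 4 ≤ n) (h6 : n ≠ 6)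
    (e : K ≃* alternatingGroup (Fin n)) : ∃ ψ : G →* Perm (Fin n), Rep ψ := by
  set a : Perm (Fin n) ≃* MulAut (alternatingGroup (Fin n)) :=
    MulEquiv.ofBijective MulAut.conjNormal (Cfsg.Agent.S2119.result n hn h6) with ha
  set ψ : G →* Perm (Fin n) :=
    (a.symm.toMonoidHom.comp (MulAut.congr e).toMonoidHom).comp (MulAut.conjNormal : G →* MulAut K) with hψ
  have h1 : ∀ (g : G), a (ψ g) = MulAut.congr e (MulAut.conjNormal g) := fun g => a.apply_symm_apply _
  refine ⟨ψ, ?_, ?_⟩
  · rw [injective_iff_map_eq_one]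
    intro g hg
    have h3 := h1 g
    rw [hg, map_one] at h3
    have h4 : (MulAut.conjNormal g : MulAut K) = 1 := (MulAut.congr e).injective (by rw [← h3, map_one])
    have h5 : g ∈ Subgroup.centralizer (K : Set G) := by
      rw [Subgroup.mem_centralizer_iff]
      intro k hk
      have h6 := MulAut.conjNormal_apply (H := K) g ⟨k, hk⟩
      rw [h4, MulAut.one_apply] at h6
      change k = g * k * g⁻¹ at h6
      nth_rewrite 1 [h6]
      rw [inv_mul_cancel_right]
    rw [hCK, Subgroup.mem_bot] at h5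
    exact h5
  · intro σ hσ
    refine ⟨e.symm ⟨σ, Perm.mem_alternatingGroup.2 hσ⟩, ?_⟩
    apply a.injective
    rw [h1]
    apply MulEquiv.ext
    intro x
    rw [MulAut.conjNormal_val]
    apply Subtype.ext
    have h3 : (MulAut.congr e) (MulAut.conj (e.symm ⟨σ, Perm.mem_alternatingGroup.2 hσ⟩)) x =
      e (MulAut.conj (e.symm ⟨σ, Perm.mem_alternatingGroup.2 hσ⟩) (e.symm x)) := rfl
    rw [h3, MulAut.conj_apply, map_mul, map_mul, map_inv, e.apply_symm_apply, e.apply_symm_apply]
    exact (MulAut.conjNormal_apply (H := alternatingGroup (Fin n)) σ x).symm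

/-- **the alternating row of S2927** -/
theorem dead_alt : DeadL.{u} (fun K _ => ∃ n : ℕ, 7 ≤ n ∧ n ≠ 8 ∧ Nonempty (K ≃* alternatingGroup (Fin n))) := by
  rintro G _ _ S Q M c K hK _ _ hC ⟨n, hn, h8, ⟨e⟩⟩
  obtain ⟨ψ, hψ⟩ := exists_rep K hC (by omega) (by omega) e
  exact hψ.dead c hn h8

end Cfsg.Agent.H282.LT
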