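import Cfsg.Agent.H252.LT.Rows

/-!
# S2927: first consequences of `Cx`

* `Cx.not_comm_Q` : `Q` is not abelian.
* `Cx.chP_cent` : `C_G(t)` has characteristic 2 for every involution `t ∈ C_G(S)`.
* `Cx.Q_le_core` : `Q ≤ O₂(C_G(t))`.
* `Cx.exists_central_mem` : a normal subgroup containing an involution contains an involution centralised by `S`.
-/

set_option autoImplicit false
set_option linter.unusedSectionVars false
open Cfsg Subgroup
open Cfsg.Agent.H229 Cfsg.Agent.H230

namespace Cfsg.Agent.H252.LT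

variable {G : Type*} [Group G]

/-- a normal subgroup `N` of a group `L` of characteristic 2 with `N ∩ O₂(L) = 1` is trivial. -/
theorem eq_bot_of_chP {L N : Subgroup G} (hL : ChP 2 L) (hN : N ≤ L) (hn : L ≤ normalizer (N : Set G))
    (h : pCoreOf 2 L ⊓ N = ⊥) : N = ⊥ := by
  have h1 : N ≤ centralizer (pCoreOf 2 L : Set G) := by
    rw [← commutator_eq_bot_iff_le_centralizer, eq_bot_iff, ← h]
    refine le_inf ?_ ?_
    · exact le_norm_iff_comm_le.1 (hN.trans (le_norm_pCoreOf 2 L))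
    · rw [commutator_comm]
      exact le_norm_iff_comm_le.1 ((H229.pCoreOf_le 2 L).trans hn)
  have h2 : N ≤ pCoreOf 2 L := le_trans (le_inf hN h1) hL
  rw [eq_bot_iff, ← h]
  exact le_inf h2 le_rfl

/-- a nontrivial `2`-group contains an involution -/
theorem exists_invol [Finite G] {A : Subgroup G} (hA : IsPGroup 2 ↥A) (h1 : A ≠ ⊥) :
    ∃ x ∈ A, x ≠ 1 ∧ x ^ 2 = 1 := by
  have hnt : Nontrivial ↥A := (nontrivial_iff_ne_bot _).2 h1
  obtain ⟨n, hn, hcard⟩ := hA.nontrivial_iff_card.1 hnt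
  have hdvd : 2 ∣ Nat.card ↥A := by rw [hcard]; exact dvd_pow_self 2 hn.ne'
  obtain ⟨y, hy⟩ := exists_prime_orderOf_dvd_card' 2 hdvd
  refine ⟨y, y.2, ?_, ?_⟩
  · intro h4
    have h5 : y = 1 := Subtype.ext h4
    rw [h5, orderOf_one] at hy
    omega
  · have h5 : y ^ 2 = 1 := by rw [← hy]; exact pow_orderOf_eq_one y
    exact congrArg Subtype.val h5

namespace Cx

variable [Finite G] {S : Sylow 2 G} {Q M : Subgroup G}

theorem Q_pgroup (c : Cx S Q M) : IsPGroup 2 ↥Q := c.st.large.pgroup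

theorem S_le_cent {S : Sylow 2 G} {t : G} (ht : t ∈ centralizer ((S : Subgroup G) : Set G)) :
    (S : Subgroup G) ≤ centralizer ({t} : Set G) := by
  intro s hs
  rw [mem_centralizer_singleton_iff]
  exact (mem_centralizer_iff.1 ht) s hs

theorem Q_le_core (c : Cx S Q M) {t : G} (ht : t ∈ centralizer ((S : Subgroup G) : Set G)) (h1 : t ≠ 1) :
    Q ≤ pCoreOf 2 (centralizer ({t} : Set G)) :=
  le_pCoreOf (c.st.QS.trans (S_le_cent ht)) (c.cent_le_norm_Q ht h1) c.Q_pgroup

theorem chP_cent (c : Cx S Q M) {t : G} (ht : t ∈ centralizer ((S : Subgroup G) : Set G)) (h1 : t ≠ 1) :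
    ChP 2 (centralizer ({t} : Set G)) := by
  apply c.chP_of_S (S_le_cent ht)
  intro h2
  apply c.st.large.ne_bot
  rw [eq_bot_iff, ← h2]
  exact c.Q_le_core ht h1

/-- `Q` is not abelian. -/
theorem not_comm_Q (c : Cx S Q M) (h : ∀ a ∈ Q, ∀ b ∈ Q, a * b = b * a) : False := by
  obtain ⟨x, hxY, hx1, hx⟩ := c.bad
  apply hx
  have hxQ : x ∈ centralizer (Q : Set G) := by
    rw [mem_centralizer_iff]
    exact fun q hq => h q hq x (c.Y_le_Q hxY)
  have h1 : centralizer ({x} : Set G) ≤ normalizer (Q : Set G) := by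
    refine le_trans (centralizer_singleton_le_zpowers x) (le_trans (centralizer_le_norm _) ?_)
    exact c.st.large.norm (by rwa [zpowers_le]) (by rwa [Ne, zpowers_eq_bot])
  have h2 : Q ≤ centralizer ({x} : Set G) := by
    intro q hq
    rw [mem_centralizer_singleton_iff]
    exact (mem_centralizer_iff.1 hxQ) q hq
  have h3 : Q ≤ pCoreOf 2 (centralizer ({x} : Set G)) := le_pCoreOf h2 h1 c.Q_pgroup
  exact (inf_le_right.trans (Subgroup.centralizer_le h3)).trans (c.st.large.cent.trans h3)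

/-- a subgroup `N ≤ L` normalised by `L ≥ S` and containing an involution contains an involution centralised by `S`. -/
theorem exists_central_le (S : Sylow 2 G) {L N : Subgroup G} (hSL : (S : Subgroup G) ≤ L) (hNL : N ≤ L)
    (hn : L ≤ normalizer (N : Set G)) {w : G} (hw : w ∈ N) (hw1 : w ≠ 1)
    (hw2 : w ^ 2 = 1) : ∃ z ∈ N, z ∈ centralizer ((S : Subgroup G) : Set G) ∧ z ≠ 1 ∧ z ^ 2 = 1 := by
  have h1 : IsPGroup 2 ↥(zpowers w) := by
    refine IsPGroup.of_card (n := 1) ?_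
    rw [Nat.card_zpowers, pow_one]
    exact orderOf_eq_prime hw2 hw1
  have h0 : zpowers w ≤ L := by rw [zpowers_le]; exact hNL hw
  obtain ⟨T, hT, hwT⟩ := exists_isSylowOf_ge (p := 2) h0 h1
  obtain ⟨a, ha, hTa⟩ := hT.exists_conj (isSylowOf_of_sylow S hSL)
  have h2 : a * w * a⁻¹ ∈ (S : Subgroup G) := by
    rw [← hTa]
    exact conj_mem_cj (hwT (mem_zpowers w))
  have h3 : N ⊓ (S : Subgroup G) ≠ ⊥ := by
    intro h4
    have h5 : a * w * a⁻¹ ∈ N ⊓ (S : Subgroup G) := ⟨le_norm_iff.1 hn a ha w hw, h2⟩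
    rw [h4, mem_bot] at h5
    apply hw1
    calc w = a⁻¹ * (a * w * a⁻¹) * a := by group
      _ = 1 := by rw [h5]; group
  have h4 := PLocal.OffenderStep.inf_centralizer_ne_bot (N ⊓ (S : Subgroup G)) (S : Subgroup G)
    (isPGroup_mono inf_le_right S.2) S.2
    (le_trans (le_inf (hSL.trans hn) le_normalizer) (norm_inf_le _ _)) h3
  obtain ⟨z, hz, hz1, hz2⟩ := exists_invol (isPGroup_mono (inf_le_left.trans inf_le_right) S.2) h4
  exact ⟨z, hz.1.1, hz.2, hz1, hz2⟩

/-- a normal subgroup containing an involution contains an involution centralised by `S`. -/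
theorem exists_central_mem (S : Sylow 2 G) {N : Subgroup G} [hN : N.Normal] {w : G} (hw : w ∈ N) (hw1 : w ≠ 1)
    (hw2 : w ^ 2 = 1) : ∃ z ∈ N, z ∈ centralizer ((S : Subgroup G) : Set G) ∧ z ≠ 1 ∧ z ^ 2 = 1 :=
  exists_central_le S le_top le_top (by rw [Subgroup.normalizer_eq_top_iff.2 hN]) hw hw1 hw2

end Cx

end Cfsg.Agent.H252.LT
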